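import Cfsg.Agent.H336.LinFour.LinRep

/-!
# Counting the weights
-/

set_option autoImplicit false
set_option linter.unusedSectionVars false

namespace Cfsg.Agent.H336.LinFour

open Subgroup Cfsg.Agent.H336.LinFour.Wt

/-- the dual action -/
def dact (s : S) (u : V) : V := ((s⁻¹ : S) : Matrix (Fin 4) (Fin 4) (ZMod 2)).transpose.mulVec u

theorem dt_eq_dotProduct (c v : V) : dt c v = c ⬝ᵥ v := by
  rw [dt_sum]; rfl

theorem dt_dact (s : S) (u v : V) : dt (dact s u) (act s v) = dt u v := by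
  rw [dt_eq_dotProduct, dt_eq_dotProduct]
  unfold dact
  rw [Matrix.mulVec_transpose, ← Matrix.dotProduct_mulVec]
  congr 1
  change act s⁻¹ (act s v) = v
  rw [← act_mul, inv_mul_cancel, act_one]

theorem dact_eq {s : S} {u w : V} (h : ∀ v, dt w (act s v) = dt u v) : dact s u = w := by
  rw [← add_eq_zero_iff]
  apply eq_zero_of_dt
  intro y
  have h1 : y = act s (act s⁻¹ y) := by rw [← act_mul, mul_inv_cancel, act_one]
  rw [dt_comm, dt_add_left, h1, dt_dact, h, z2_add_self]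

theorem exists_ann (a : V) : ∃ c : V, c ≠ 0 ∧ dt c a = 0 := by
  obtain ⟨b, hb0, hba, -, -⟩ := exists_third a a
  obtain ⟨c, h1, h2⟩ := exists_dt_one_zero hb0 hba
  refine ⟨c, ?_, h2⟩
  rintro rfl
  rw [dt_zero_left] at h1
  exact absurd h1 (by decide)

/-- the weights -/
abbrev X (F : Type*) {R : Type*} [Field F] [Ring R] [Algebra F R] (Y : V → R) := {u : V // P F Y u ≠ 0}

section

variable {F R : Type*} [Field F] [Ring R] [Algebra F R] {Y : V → R}

open Classical in
/-- extension of a sign function -/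
noncomputable def ex (e : X F Y → ℤˣ) (u : V) : F := if hu : P F Y u ≠ 0 then ((e ⟨u, hu⟩ : ℤ) : F) else 1

theorem ex_mul (e e' : X F Y → ℤˣ) (u : V) : ex (e * e') u = ex e u * ex e' u := by
  unfold ex
  split_ifs <;> simp

theorem ex_one (u : V) : ex (1 : X F Y → ℤˣ) u = 1 := by
  unfold ex
  split_ifs <;> simp

theorem ex_apply (e : X F Y → ℤˣ) (u : X F Y) : ex e u = ((e u : ℤ) : F) := by
  unfold ex
  rw [dif_pos u.2]

theorem ex_cases (e : X F Y → ℤˣ) (u : V) : ex e u = 1 ∨ ex e u = -1 := by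
  unfold ex
  split_ifs with hu
  · rcases Int.units_eq_one_or (e ⟨u, hu⟩) with h | h <;> rw [h] <;> simp
  · exact Or.inl rfl

theorem unit_eq (h2 : (2 : F) ≠ 0) {a b : ℤˣ} (h : ((a : ℤ) : F) = ((b : ℤ) : F)) : a = b := by
  have h3 : (1 : F) ≠ -1 := fun h => h2 (by linear_combination h)
  rcases Int.units_eq_one_or a with rfl | rfl <;> rcases Int.units_eq_one_or b with rfl | rfl
  · rfl
  · exact absurd (by simpa using h) h3
  · exact absurd (by simpa using h.symm) h3
  · rfl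

/-- the sign elements -/
noncomputable def Ds (e : X F Y → ℤˣ) : R := D F Y (ex e)

theorem Ds_mul (h2 : (2 : F) ≠ 0) (hY : ∀ u v, Y (u + v) = Y u * Y v) (e e' : X F Y → ℤˣ) :
    Ds (e * e') = Ds e * Ds e' := by
  unfold Ds
  rw [D_mul F h2 hY]
  congr 1
  funext u
  exact ex_mul e e' u

theorem Ds_one (h2 : (2 : F) ≠ 0) (hY0 : Y 0 = 1) : Ds (1 : X F Y → ℤˣ) = 1 := by
  unfold Ds
  rw [show ex (1 : X F Y → ℤˣ) = fun _ => (1 : F) from funext ex_one]
  exact D_one F h2 hY0

theorem Ds_sq (h2 : (2 : F) ≠ 0) (hY : ∀ u v, Y (u + v) = Y u * Y v) (hY0 : Y 0 = 1) (e : X F Y → ℤˣ) :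
    Ds e * Ds e = 1 := by
  rw [← Ds_mul h2 hY]
  have : e * e = 1 := by
    funext u
    exact Int.units_mul_self _
  rw [this, Ds_one h2 hY0]

/-- the sign functions whose element lies in the image of `L` -/
def Hs {L : Type*} [Group L] (h2 : (2 : F) ≠ 0) (hY : ∀ u v, Y (u + v) = Y u * Y v) (hY0 : Y 0 = 1) (ι : L →* R) :
    Subgroup (X F Y → ℤˣ) where
  carrier := {e | ∃ g : L, ι g = Ds e}
  one_mem' := ⟨1, by rw [map_one, Ds_one h2 hY0]⟩
  mul_mem' := by
    rintro e e' ⟨g, hg⟩ ⟨g', hg'⟩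
    exact ⟨g * g', by rw [map_mul, hg, hg', Ds_mul h2 hY]⟩
  inv_mem' := by
    rintro e ⟨g, hg⟩
    refine ⟨g, ?_⟩
    have : e⁻¹ = e := by
      funext u
      exact Int.units_inv_eq_self _
    rw [this, hg]

theorem mem_Hs {L : Type*} [Group L] {h2 : (2 : F) ≠ 0} {hY : ∀ u v, Y (u + v) = Y u * Y v} {hY0 : Y 0 = 1}
    {ι : L →* R} {e : X F Y → ℤˣ} : e ∈ Hs h2 hY hY0 ι ↔ ∃ g : L, ι g = Ds e := Iff.rfl

end

namespace Lin

variable {F R K L : Type*} [Field F] [Ring R] [Algebra F R] [Nontrivial R] [Group K] [Group L]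
  {π : L →* K} {ι : L →* R} {th : V → K} {O K0 : Subgroup K} {Y : V → R}

theorem nonempty_X (h2 : (2 : F) ≠ 0) (hY0 : Y 0 = 1) : Nonempty (X F Y) := by
  by_contra hne
  rw [nonempty_subtype] at hne
  push Not at hne
  have h1 := sum_P F h2 hY0
  rw [Finset.sum_eq_zero fun u _ => hne u] at h1
  exact zero_ne_one h1

theorem card_Hs_le (H : Lin F π ι) (h : Sit th O K0) (h2 : (2 : F) ≠ 0) (hY : ∀ u v, Y (u + v) = Y u * Y v)
    (hY0 : Y 0 = 1) (hYx : ∀ v, ∃ g : L, ∃ c : F, c ≠ 0 ∧ π g = th v ∧ Y v = c • ι g) :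
    Nat.card (Hs h2 hY hY0 ι) ≤ 32 := by
  obtain ⟨x0⟩ := nonempty_X (F := F) h2 hY0
  have hA : ∀ e : Hs h2 hY hY0 ι, ∃ g : L, ι g = Ds e.1 := fun e => e.2
  choose g hg using hA
  have hgA : ∀ e, π (g e) ∈ h.A := by
    intro e
    refine h.mem_of_mul_self (fun v => ?_) ?_
    · obtain ⟨x, c, hc0, hx, hc⟩ := hYx v
      rw [← hx, ← map_mul, ← map_mul]
      congr 1
      apply H.inj
      rw [map_mul, map_mul, hg]
      have h1 := D_comm F hY (ex e.1) v
      rw [hc, mul_smul_comm, smul_mul_assoc] at h1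
      have h3 := congrArg (fun r => c⁻¹ • r) h1
      simp only [inv_smul_smul₀ hc0] at h3
      exact h3
    · rw [← map_mul]
      have h1 : g e * g e = 1 := H.inj (by rw [map_mul, hg, Ds_sq h2 hY hY0, map_one])
      rw [h1, map_one]
  have hinj : Function.Injective (fun e : Hs h2 hY hY0 ι => ((⟨π (g e), hgA e⟩ : h.A), e.1 x0)) := by
    intro e e' hee
    have e1 : π (g e) = π (g e') := congrArg Subtype.val (Prod.ext_iff.1 hee).1
    have e2 : e.1 x0 = e'.1 x0 := (Prod.ext_iff.1 hee).2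
    obtain ⟨c, -, hc⟩ := H.exists_smul e1
    rw [hg, hg] at hc
    have e3 : Ds (e.1 * e'.1) = algebraMap F R c := by
      rw [Ds_mul h2 hY, hc, smul_mul_assoc, Ds_sq h2 hY hY0, Algebra.algebraMap_eq_smul_one]
    have e4 : ∀ u : X F Y, ex (e.1 * e'.1) u = c := fun u => D_scalar F h2 hY e3 u.2
    have e5 : c = 1 := by
      rw [← e4 x0, ex_apply, Pi.mul_apply, e2, Int.units_mul_self]; simp
    apply Subtype.ext
    funext u
    have e6 := e4 u
    rw [ex_apply, e5, Pi.mul_apply] at e6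
    have e7 : e.1 u * e'.1 u = 1 := unit_eq h2 (by rw [e6]; simp)
    calc e.1 u = e.1 u * e'.1 u * e'.1 u := by rw [mul_assoc, Int.units_mul_self, mul_one]
      _ = e'.1 u := by rw [e7, one_mul]
  have hfin : Finite h.A := Nat.finite_of_card_ne_zero (by rw [h.card_A]; norm_num)
  have h3 := Nat.card_le_card_of_injective _ hinj
  have h4 : Nat.card ℤˣ = 2 := by rw [Nat.card_eq_fintype_card, Fintype.card_units_int]
  rw [Nat.card_prod, h.card_A, h4] at h3
  exact h3

theorem card_X_le (H : Lin F π ι) (h : Sit th O K0) (h2 : (2 : F) ≠ 0) (hY : ∀ u v, Y (u + v) = Y u * Y v)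
    (hY0 : Y 0 = 1) (hYx : ∀ v, ∃ g : L, ∃ c : F, c ≠ 0 ∧ π g = th v ∧ Y v = c • ι g)
    (hidx : (Hs (F := F) h2 hY hY0 ι).index ≤ 4) : Nat.card (X F Y) ≤ 7 := by
  classical
  have h1 := H.card_Hs_le h h2 hY hY0 hYx
  have h3 := (Hs (F := F) h2 hY hY0 ι).card_mul_index
  have h4 : Nat.card (X F Y → ℤˣ) = 2 ^ Nat.card (X F Y) := by
    rw [Nat.card_fun, Nat.card_eq_fintype_card (α := ℤˣ), Fintype.card_units_int]
  rw [h4] at h3
  have h5 : 2 ^ Nat.card (X F Y) ≤ 2 ^ 7 := by
    rw [← h3]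
    calc _ ≤ 32 * 4 := Nat.mul_le_mul h1 hidx
      _ = 2 ^ 7 := by norm_num
  exact (Nat.pow_le_pow_iff_right (by norm_num)).1 h5

/-- conjugation of the idempotents -/
theorem conj_P (H : Lin F π ι) (h : Sit th O K0) (h2 : (2 : F) ≠ 0) (hY : ∀ u v, Y (u + v) = Y u * Y v)
    (hY0 : Y 0 = 1) (hYx : ∀ v, ∃ g : L, ∃ c : F, c ≠ 0 ∧ π g = th v ∧ Y v = c • ι g)
    (g : L) (hg : π g ∈ normalizer (h.A : Set K)) :
    ∃ k : V, ∀ u, ι g * P F Y u * ι g⁻¹ = P F Y (dact (h.rep ⟨π g, hg⟩) u + k) := by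
  set s := h.rep ⟨π g, hg⟩ with hs
  have hYsq : ∀ v, Y v * Y v = 1 := fun v => by rw [← hY, v_add_self, hY0]
  have hgg : ι g⁻¹ * ι g = 1 := by rw [← map_mul, inv_mul_cancel, map_one]
  have hgg' : ι g * ι g⁻¹ = 1 := by rw [← map_mul, mul_inv_cancel, map_one]
  have h1 : ∀ v, ∃ f : ZMod 2, ι g * Y v * ι g⁻¹ = sg F f • Y (act s v) := by
    intro v
    obtain ⟨x, c, hc0, hx, hc⟩ := hYx v
    obtain ⟨x', c', hc0', hx', hc'⟩ := hYx (act s v)
    have e1 : π (g * x * g⁻¹) = π x' := by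
      rw [map_mul, map_mul, map_inv, hx, hx']
      exact h.rep_spec ⟨π g, hg⟩ v
    obtain ⟨d, -, hd⟩ := H.exists_smul e1
    have e2 : ι g * Y v * ι g⁻¹ = (c * d * c'⁻¹) • Y (act s v) := by
      rw [hc, hc', mul_smul_comm, smul_mul_assoc, ← map_mul, ← map_mul, hd, smul_smul, smul_smul]
      congr 1
      field_simp
    have e3 : (c * d * c'⁻¹) * (c * d * c'⁻¹) = 1 := by
      have e4 : (ι g * Y v * ι g⁻¹) * (ι g * Y v * ι g⁻¹) = 1 := by
        calc (ι g * Y v * ι g⁻¹) * (ι g * Y v * ι g⁻¹) = ι g * Y v * (ι g⁻¹ * ι g) * (Y v * ι g⁻¹) := by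
              simp only [mul_assoc]
          _ = ι g * (Y v * Y v) * ι g⁻¹ := by rw [hgg]; simp only [mul_assoc, mul_one, one_mul]
          _ = 1 := by rw [hYsq, mul_one, hgg']
      rw [e2, smul_mul_smul_comm, hYsq, ← Algebra.algebraMap_eq_smul_one] at e4
      exact (algebraMap F R).injective (e4.trans (map_one _).symm)
    rcases mul_self_eq_one_iff.1 e3 with e5 | e5
    · exact ⟨0, by rw [e2, e5, sg_zero]⟩
    · exact ⟨1, by rw [e2, e5, sg_one]⟩
  choose f hf using h1
  have hY1 : ∀ v, Y v ≠ 0 := fun v hv => by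
    have := hYsq v
    rw [hv, zero_mul] at this
    exact zero_ne_one this
  have hfadd : ∀ u v, f (u + v) = f u + f v := by
    intro u v
    apply sg_inj F h2
    have e1 := hf (u + v)
    have e2 : ι g * Y (u + v) * ι g⁻¹ = (ι g * Y u * ι g⁻¹) * (ι g * Y v * ι g⁻¹) := by
      rw [hY]
      calc ι g * (Y u * Y v) * ι g⁻¹ = ι g * Y u * 1 * (Y v * ι g⁻¹) := by simp only [mul_assoc, mul_one, one_mul]
        _ = ι g * Y u * (ι g⁻¹ * ι g) * (Y v * ι g⁻¹) := by rw [hgg]
        _ = _ := by simp only [mul_assoc]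
    rw [e2, hf, hf, smul_mul_smul_comm, ← hY, ← act_add] at e1
    rw [sg_add]
    rw [← sub_eq_zero, ← sub_smul] at e1
    rcases smul_eq_zero.1 e1 with h3 | h3
    · exact (sub_eq_zero.1 h3).symm
    · exact absurd h3 (hY1 _)
  obtain ⟨k, hk⟩ := exists_dual (fun w => f (act s⁻¹ w)) (fun u v => by rw [act_add, hfadd])
  have hk' : ∀ v, f v = dt k (act s v) := by
    intro v
    have := hk (act s v)
    rwa [← act_mul, inv_mul_cancel, act_one] at this
  refine ⟨k, fun u => ?_⟩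
  unfold P
  rw [mul_smul_comm, smul_mul_assoc, Finset.mul_sum, Finset.sum_mul]
  congr 1
  rw [← Equiv.sum_comp (actE s).toEquiv (fun w => sg F (dt (dact s u + k) w) • Y w)]
  refine Finset.sum_congr rfl fun v _ => ?_
  change ι g * sg F (dt u v) • Y v * ι g⁻¹ = sg F (dt (dact s u + k) (act s v)) • Y (act s v)
  rw [mul_smul_comm, smul_mul_assoc, hf, smul_smul, dt_add_left, sg_add, hk', dt_dact]

/-- **no configuration with few weights** -/
theorem false_of_card_X [Finite K] [Finite L] (H : Lin F π ι) (h : Sit th O K0) (h2 : (2 : F) ≠ 0)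
    (hY : ∀ u v, Y (u + v) = Y u * Y v) (hY0 : Y 0 = 1)
    (hYx : ∀ v, ∃ g : L, ∃ c : F, c ≠ 0 ∧ π g = th v ∧ Y v = c • ι g)
    (hX : Nat.card (X F Y) ≤ 7) : False := by
  classical
  -- the set of idempotents
  let Z : Type _ := {r : R // r ≠ 0 ∧ ∃ u, P F Y u = r}
  have hZf : Finite Z := by
    refine Finite.of_surjective (α := X F Y) (fun u => (⟨P F Y u, u.2, u, rfl⟩ : Z)) ?_
    rintro ⟨r, hr, u, rfl⟩
    exact ⟨⟨u, hr⟩, rfl⟩
  have hZX : Nat.card Z ≤ Nat.card (X F Y) := by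
    refine Nat.card_le_card_of_surjective (fun u : X F Y => (⟨P F Y u, u.2, u, rfl⟩ : Z)) ?_
    rintro ⟨r, hr, u, rfl⟩
    exact ⟨⟨u, hr⟩, rfl⟩
  let N := (normalizer (h.A : Set K)).comap π
  have hgg : ∀ g, ι g⁻¹ * ι g = 1 := fun g => by rw [← map_mul, inv_mul_cancel, map_one]
  have hgg' : ∀ g, ι g * ι g⁻¹ = 1 := fun g => by rw [← map_mul, mul_inv_cancel, map_one]
  let _ : MulAction N Z :=
    { smul := fun g r => ⟨ι g * r * ι (g : L)⁻¹, by
        constructor
        · intro h0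
          apply r.2.1
          have : (r : R) = ι (g : L)⁻¹ * (ι g * r * ι (g : L)⁻¹) * ι g := by
            calc (r : R) = (ι (g : L)⁻¹ * ι g) * r * (ι (g : L)⁻¹ * ι g) := by rw [hgg, one_mul, mul_one]
              _ = _ := by simp only [mul_assoc]
          rw [this, h0, mul_zero, zero_mul]
        · obtain ⟨-, u, hu⟩ := r.2
          obtain ⟨k, hk⟩ := H.conj_P h h2 hY hY0 hYx g g.2
          exact ⟨_, by rw [← hu, hk u]⟩⟩
      one_smul := fun r => Subtype.ext (by
        change ι ((1 : N) : L) * r * ι ((1 : N) : L)⁻¹ = r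
        rw [Subgroup.coe_one, inv_one, map_one, one_mul, mul_one])
      mul_smul := fun g g' r => Subtype.ext (by
        change ι ((g * g' : N) : L) * r * ι ((g * g' : N) : L)⁻¹ = ι g * (ι g' * r * ι (g' : L)⁻¹) * ι (g : L)⁻¹
        rw [Subgroup.coe_mul, mul_inv_rev, map_mul, map_mul]
        simp only [mul_assoc]) }
  have hsmul : ∀ (g : N) (r : Z), ((g • r : Z) : R) = ι g * r * ι (g : L)⁻¹ := fun _ _ => rfl
  let ψ : N →* Equiv.Perm Z := MulAction.toPermHom N Z
  let ρ : N →* S := h.rep.comp ((π.comp N.subtype).codRestrict (normalizer (h.A : Set K)) (fun g => g.2))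
  have hρ : ∀ g : N, ρ g = h.rep ⟨π g, g.2⟩ := fun _ => rfl
  have hρs : Function.Surjective ρ := by
    intro s
    obtain ⟨n, hn⟩ := h.rep_surjective s
    obtain ⟨g, hg⟩ := H.surj n
    have hgN : π g ∈ normalizer (h.A : Set K) := by rw [hg]; exact n.2
    refine ⟨⟨g, hgN⟩, ?_⟩
    rw [hρ, ← hn]
    congr 1
    exact Subtype.ext hg
  have hsimple := isSimple_S
  rcases (Subgroup.Normal.map (inferInstance : ψ.ker.Normal) ρ hρs).eq_bot_or_eq_top with h1 | h1
  · -- the order of `S` is at most `9!`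
    rw [Subgroup.map_eq_bot_iff] at h1
    have hle : Nat.card S ≤ Nat.card (Equiv.Perm Z) := by
      choose σ hσ using hρs
      refine Nat.card_le_card_of_injective (fun s => ψ (σ s)) fun s t hst => ?_
      have h3 : σ s * (σ t)⁻¹ ∈ ψ.ker := by
        rw [MonoidHom.mem_ker, map_mul, map_inv, mul_inv_eq_one]; exact hst
      have h4 := h1 h3
      rw [MonoidHom.mem_ker, map_mul, map_inv, hσ, hσ, mul_inv_eq_one] at h4
      exact h4
    have h3 : Nat.card (Equiv.Perm Z) = (Nat.card Z).factorial := by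
      have := Fintype.ofFinite Z
      rw [Nat.card_eq_fintype_card, Fintype.card_perm, Nat.card_eq_fintype_card]
    rw [h3, card_S] at hle
    have h4 : (Nat.card Z).factorial ≤ (7).factorial := Nat.factorial_le (hZX.trans hX)
    have h5 : (7).factorial = 5040 := by decide
    omega
  · -- all weights are equal
    have hall : ∀ u u', P F Y u ≠ 0 → P F Y u' ≠ 0 → u = u' := by
      intro u u' hu hu'
      rw [← add_eq_zero_iff]
      apply eq_zero_of_dt
      intro a
      rw [dt_comm]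
      obtain ⟨c, hc0, hca⟩ := exists_ann a
      obtain ⟨t, ht⟩ := exists_act (tv c a hca)
      have h3 : t ∈ (⊤ : Subgroup S) := trivial
      rw [← h1] at h3
      obtain ⟨g, hgk, hg⟩ := h3
      obtain ⟨k, hk⟩ := H.conj_P h h2 hY hY0 hYx g g.2
      have hfix : ∀ w, P F Y w ≠ 0 → dact (ρ g) w + k = w := by
        intro w hw
        have h4 : ψ g (⟨P F Y w, hw, w, rfl⟩ : Z) = ⟨P F Y w, hw, w, rfl⟩ := by
          rw [MonoidHom.mem_ker.1 hgk]; rfl
        have h5 := congrArg Subtype.val h4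
        change ι g * P F Y w * ι (g : L)⁻¹ = P F Y w at h5
        rw [hk w] at h5
        exact (P_inj F h2 hY hw h5.symm).symm
      have htr : ∀ w, dact t w = w + dt w a • c := by
        intro w
        refine dact_eq fun v => ?_
        have e : dt (w + dt w a • c) a = dt w a := by rw [dt_add_left, dt_smul_left, hca, mul_zero, add_zero]
        rw [ht, dt_tv, e, add_assoc, v_add_self, add_zero]
      have e1 := hfix u hu
      have e2 := hfix u' hu'
      rw [hg, htr] at e1 e2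
      have e3 : dt u a • c = k := by
        have : u + (u + dt u a • c + k) = u + u := by rw [e1]
        rw [v_add_self, add_assoc u, self_add_add] at this
        exact (add_eq_zero_iff _ _).1 this
      have e4 : dt u' a • c = k := by
        have : u' + (u' + dt u' a • c + k) = u' + u' := by rw [e2]
        rw [v_add_self, add_assoc u', self_add_add] at this
        exact (add_eq_zero_iff _ _).1 this
      rw [dt_add_left]
      have e5 : (dt u a + dt u' a) • c = 0 := by rw [add_smul, e3, e4, v_add_self]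
      rcases smul_eq_zero.1 e5 with h6 | h6
      · exact h6
      · exact absurd h6 hc0
    -- then `A` acts by scalars
    obtain ⟨⟨u0, hu0⟩⟩ := nonempty_X (F := F) h2 hY0
    have hone : P F Y u0 = 1 := by
      rw [← sum_P F h2 hY0, Finset.sum_eq_single u0]
      · intro v _ hv
        by_contra h3
        exact hv (hall v u0 h3 hu0)
      · intro h3; exact absurd (Finset.mem_univ _) h3
    have hth : ∀ v, th v = 1 := by
      intro v
      obtain ⟨x, c, hc0, hx, hc⟩ := hYx v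
      have h3 := P_mul_Y F hY u0 v
      rw [hone, one_mul, hc] at h3
      rw [← hx, H.ker]
      refine ⟨c⁻¹ * sg F (dt u0 v), ?_⟩
      rw [Algebra.algebraMap_eq_smul_one, mul_smul, ← h3, inv_smul_smul₀ hc0]
    obtain ⟨v, hv⟩ := exists_ne (0 : V)
    exact hv ((h.eq_one_iff v).1 (hth v))

end Lin

end Cfsg.Agent.H336.LinFour
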