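import Cfsg.Agent.ChevalleyStructure.E6AdCubic
import Cfsg.Agent.ChevalleyStructure.E6Form.Elim

/-!
# The root elements `zG r t` of the elimination are the root elements `Z r' (± t)` of the adjoint comparison
-/

set_option autoImplicit false

namespace Cfsg.Agent.H336.LinFour.CubE6

open Cfsg.Lie
open Cfsg.Agent.ChevalleyStructure.E6Form.Cubic Cfsg.Agent.ChevalleyStructure.E6Form.Table
open Cfsg.Agent.ChevalleyStructure.E6Form.Elim
open Cfsg.Agent.ChevalleyStructure.E6AdTab (P lk st)
open Cfsg.Agent.ChevalleyStructure.E6AdMat (num dec N dec_le_one dec_st dec_xor)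
open Cfsg.Agent.ChevalleyStructure.E6Ad (Z Gam coe_Z)
open scoped Matrix

universe u

/-- the correspondence of the roots -/
def corr : List (ℕ × ℤ) := [
  (21, 1), (56, -1), (18, -1), (17, -1), (28, -1), (60, -1), (59, 1), (66, -1), (24, 1), (38, 1), (37, -1), (57,
  1), (63, -1), (62, 1), (32, 1), (69, 1), (20, 1), (19, 1), (29, 1), (0, -1), (4, -1), (3, -1), (25, 1), (41,
  1), (40, -1), (10, -1), (16, -1), (27, -1), (26, -1), (1, 1), (58, 1), (65, -1), (64, 1), (23, 1), (36, 1),
  (22, -1), (49, -1), (35, 1), (48, 1), (7, 1), (6, -1), (13, 1), (70, 1), (45, -1), (44, -1), (55, -1), (61,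
  -1), (31, -1), (30, 1), (46, 1), (68, -1), (67, -1), (71, -1), (42, 1), (52, 1), (51, 1), (2, 1), (39, 1), (9,
  1), (8, -1), (14, 1), (34, -1), (33, 1), (47, 1), (5, -1), (12, 1), (11, -1), (43, -1), (54, -1), (53, -1),
  (15, -1), (50, 1)]

/-- the check of one root -/
def okk (r r' : ℕ) (s : ℤ) : Bool := wts.all fun a =>
  match (tabr r).find? (fun q => q.2.1 == a) with
  | none => Nat.ble (lk (P r') (st (num a))) 1
  | some q => lk (P r') (st (num a)) == if q.1 = s then st (num q.2.2) else Nat.xor (st (num q.2.2)) 1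

theorem corr_ok : ((List.range 72).all fun r => (Nat.blt (corr.getD r (0, 0)).1 72) &&
    (((corr.getD r (0, 0)).2 == 1) || ((corr.getD r (0, 0)).2 == -1)) &&
    okk r (corr.getD r (0, 0)).1 (corr.getD r (0, 0)).2) = true := by decide +kernel

variable {F : Type u} [Field F]

theorem zG_eq {r : ℕ} (hr : r < 72) (t : F) : ∃ (r' : Fin 72) (c : F), zG r t = Z r' c := by
  have h := forall_roots corr_ok hr
  rw [Bool.and_eq_true, Bool.and_eq_true, Bool.or_eq_true] at h
  obtain ⟨⟨h1, h2⟩, h3⟩ := h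
  generalize (corr.getD r (0, 0)).1 = r' at h1 h3
  generalize (corr.getD r (0, 0)).2 = s at h2 h3
  replace h1 : r' < 72 := by
    have := Nat.le_of_ble_eq_true h1
    omega
  rw [beq_iff_eq, beq_iff_eq] at h2
  refine ⟨⟨r', h1⟩, (s : F) * t, ?_⟩
  apply Units.ext
  rw [coe_zG, coe_Z]
  refine Matrix.ext_of_mulVec_single fun a => ?_
  have e1 : zMat F r t *ᵥ Pi.single a 1 = act (zG r t) (e F a) := rfl
  have hcol : ∀ d, (N F r' *ᵥ Pi.single a 1) d = dec F (lk (P r') (st (num a))) d := by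
    intro d
    rw [Matrix.mulVec_single_one]
    rfl
  rw [e1, Matrix.add_mulVec, Matrix.one_mulVec, Matrix.smul_mulVec]
  have h4 := forall_wts h3 a
  cases hf : (tabr r).find? (fun q => q.2.1 == a) with
  | none =>
    rw [hf] at h4
    have h5 : lk (P r') (st (num a)) ≤ 1 := Nat.le_of_ble_eq_true h4
    rw [List.find?_eq_none] at hf
    rw [act_zG_e_of_not_source hr (fun q hq hqa => hf q hq (by rw [hqa]; exact beq_self_eq_true a))]
    funext d
    rw [Pi.add_apply, Pi.smul_apply, hcol, dec_le_one h5, Pi.zero_apply, smul_zero, add_zero]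
    rfl
  | some q =>
    rw [hf] at h4
    have hq : q ∈ tabr r := List.mem_of_find?_eq_some hf
    have hqa : q.2.1 = a := by
      have := List.find?_some hf
      exact beq_iff_eq.1 this
    subst hqa
    rw [act_zG_e_of_source hr hq]
    have h5 : lk (P r') (st (num q.2.1)) = if q.1 = s then st (num q.2.2) else Nat.xor (st (num q.2.2)) 1 :=
      beq_iff_eq.1 h4
    have hq1 := (tab_facts hr hq).1
    funext d
    rw [Pi.add_apply, Pi.add_apply, Pi.smul_apply, Pi.smul_apply, hcol, h5, smul_eq_mul, smul_eq_mul]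
    have e2 : (Pi.single q.2.1 (1 : F) : I27 → F) d = e F q.2.1 d := rfl
    rw [e2]
    congr 1
    by_cases h6 : q.1 = s
    · rw [if_pos h6, dec_st, ← h6]
      have e3 : (Pi.single q.2.2 (1 : F) : I27 → F) d = e F q.2.2 d := rfl
      rw [e3]; ring
    · rw [if_neg h6, dec_xor, dec_st, Pi.neg_apply]
      have e3 : (Pi.single q.2.2 (1 : F) : I27 → F) d = e F q.2.2 d := rfl
      rw [e3]
      have h7 : s = - q.1 := by
        rcases h2 with h2 | h2 <;> rcases hq1 with hq1 | hq1 <;> rw [h2, hq1] <;> first | rfl | (exact absurd (by rw [h2, hq1]) h6)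
      rw [h7]; push_cast; ring

theorem zG_mem {r : ℕ} (hr : r < 72) (t : F) : zG r t ∈ E6univ F := by
  obtain ⟨r', c, h⟩ := zG_eq hr t
  rw [h]
  exact Cfsg.Agent.ChevalleyStructure.E6AdCubic.Z_mem r' c

theorem zG_mem_Gam {r : ℕ} (hr : r < 72) (t : F) : zG r t ∈ Gam F := by
  obtain ⟨r', c, h⟩ := zG_eq hr t
  rw [h]
  exact Cfsg.Agent.ChevalleyStructure.E6Ad.Z_mem_Gam r' c

end Cfsg.Agent.H336.LinFour.CubE6
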