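import Cfsg.Agent.H191.CubicBound
import Cfsg.Agent.H336.LinFour.CubE6Elt

/-!
# Isometries of order two of the cubic form in 27 variables: the `-1`-space has dimension at least 9

`finrank_rad_le`: if `x` is not singular then the radical of `tri x · ·` has dimension at most 9.
`eq_bot_of_finrank_le`: an involutory isometry with `-1`-space of dimension at most 8 is trivial.
-/

set_option autoImplicit false

namespace Cfsg.Agent.H336.LinFour.CubE6

open Cfsg.Lie Module
open Cfsg.Agent.ChevalleyStructure.E6Form.Cubic Cfsg.Agent.ChevalleyStructure.E6Form.Table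
open Cfsg.Agent.ChevalleyStructure.E6Form.Elim
open Cfsg.Agent.H191.CubicBound

universe u

variable {F : Type u} [Field F]

theorem card_J : ∀ l b : I27, nc l b = true → Fintype.card {c : I27 // c = l ∨ (ip l c = 1 ∧ nc b c = false)} = 9 := by
  decide +kernel

theorem tri_e_right (x v : I27 → F) (d : I27) :
    tri x v (e F d) = ∑ a, if nc d a = true then (sg d a : F) * (x a * v (th d a)) else 0 := by
  rw [tri_comm23, tri_comm12, tri_e_left]

/-- a vector of the radical -/
theorem key {x : I27 → F} {l b : I27} (hl : x l ≠ 0) (h1 : ∀ c, ip l c = 1 → x c = 0) (hb : nc l b = true)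
    (hxb : x b ≠ 0) {v : I27 → F} (hv : ∀ u, tri x v u = 0) (h0 : v l = 0)
    (h2 : ∀ c, ip l c = 1 → nc b c = false → v c = 0) : v = 0 := by
  have hN : ∀ c, nc l c = true → v c = 0 := by
    intro c hc
    obtain ⟨f1, f2, f3, f4, f5⟩ := (th_facts l c).1 hc
    obtain ⟨g1, g2, g3, g4, g5⟩ := (th_facts l (th l c)).1 f2
    have h3 := hv (e F (th l c))
    rw [tri_e_right, Finset.sum_eq_single l] at h3
    · rw [if_pos g1] at h3
      have h4 : th (th l c) l = c := by rw [g4, f3]
      rw [h4] at h3
      rcases mul_eq_zero.1 h3 with h5 | h5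
      · exact absurd h5 (sg_ne_zero g1)
      · exact (mul_eq_zero.1 h5).resolve_left hl
    · intro a _ ha
      by_cases h4 : nc (th l c) a = true
      · rw [if_pos h4]
        rcases ip_cases l a with h5 | h5 | h5
        · exact absurd h5.2.symm ha
        · rw [h1 a h5.1]; ring
        · -- `a = c`
          have h6 : a = th l (th l c) := gq l (th l c) a f2 h5.2.2 h4
          rw [f3] at h6
          subst h6
          obtain ⟨k1, k2, k3, k4, k5⟩ := (th_facts a l).1 f1
          have h7 : th (th l a) a = l := by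
            obtain ⟨m1, m2, m3, m4, m5⟩ := (th_facts a (th a l)).1 k2
            rw [← f4, m4, k3]
          rw [h7, h0]; ring
      · rw [if_neg h4]
    · intro h; exact absurd (Finset.mem_univ _) h
  have hS : ∀ c, ip l c = 1 → nc b c = true → v c = 0 := by
    intro c hc hbc
    obtain ⟨f1, f2, f3, f4, f5⟩ := (th_facts b c).1 hbc
    set s := th b c with hs
    have h3 := hv (e F s)
    obtain ⟨g1, g2, g3, g4, g5⟩ := (th_facts b s).1 f2
    have hsl : nc s l = false := by
      by_contra h
      rw [Bool.not_eq_false] at h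
      -- `b`, `l`, `s` pairwise
      have hbl : nc b l = true := ((th_facts l b).1 hb).1
      have h6 : s = th b l := gq b l s hbl f2 (((th_facts s l).1 h).1)
      have h7 : c = l := by
        rw [← f3, h6]
        exact ((th_facts b l).1 hbl).2.2.1
      rw [h7, ip_self] at hc
      exact absurd hc (by norm_num)
    rw [tri_e_right, Finset.sum_eq_single b] at h3
    · rw [if_pos g1] at h3
      have h4 : th s b = c := by rw [g4, f3]
      rw [h4] at h3
      rcases mul_eq_zero.1 h3 with h5 | h5
      · exact absurd h5 (sg_ne_zero g1)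
      · exact (mul_eq_zero.1 h5).resolve_left hxb
    · intro a _ ha
      by_cases h4 : nc s a = true
      · rw [if_pos h4]
        have h5 : v (th s a) = 0 := by
          obtain ⟨k1, k2, k3, k4, k5⟩ := (th_facts s a).1 h4
          rcases ip_cases l (th s a) with h6 | h6 | h6
          · rw [← h6.2, h0]
          · by_cases h7 : nc b (th s a) = true
            · exfalso
              apply ha
              have h8 : b = th s (th s a) := gq s (th s a) b k2 g1 (((th_facts b (th s a)).1 h7).1)
              rw [h8, k3]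
            · exact h2 _ h6.1 (by simpa using h7)
          · exact hN _ h6.2.2
        rw [h5]; ring
      · rw [if_neg h4]
    · intro h; exact absurd (Finset.mem_univ _) h
  funext c
  rcases ip_cases l c with h3 | h3 | h3
  · rw [← h3.2, h0]; rfl
  · by_cases h4 : nc b c = true
    · exact hS c h3.1 h4
    · exact h2 c h3.1 (by simpa using h4)
  · exact hN c h3.2.2

/-- **the radical of `tri x · ·` has dimension at most 9 if `x` is not singular** (after clearing) -/
theorem finrank_le_nine {x : I27 → F} {l b : I27} (hl : x l ≠ 0) (h1 : ∀ c, ip l c = 1 → x c = 0)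
    (hb : nc l b = true) (hxb : x b ≠ 0) (R : Submodule F (I27 → F)) (hR : ∀ v ∈ R, ∀ u, tri x v u = 0) :
    finrank F R ≤ 9 := by
  let r : R →ₗ[F] ({c : I27 // c = l ∨ (ip l c = 1 ∧ nc b c = false)} → F) :=
    { toFun := fun v c => (v : I27 → F) c
      map_add' := fun _ _ => rfl
      map_smul' := fun _ _ => rfl }
  have hinj : Function.Injective r := by
    rw [← LinearMap.ker_eq_bot, Submodule.eq_bot_iff]
    rintro ⟨v, hv⟩ hv0
    have h0 : ∀ c, (c = l ∨ (ip l c = 1 ∧ nc b c = false)) → v c = 0 := fun c hc =>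
      congrFun (LinearMap.mem_ker.1 hv0) ⟨c, hc⟩
    exact Subtype.ext (key hl h1 hb hxb (hR v hv) (h0 l (Or.inl rfl)) fun c hc hc' => h0 c (Or.inr ⟨hc, hc'⟩))
  have h := LinearMap.finrank_le_finrank_of_injective hinj
  rwa [Module.finrank_fintype_fun_eq_card, card_J l b hb] at h

theorem singular_of_smul {c : F} (a : I27) : Singular (c • e F a) := by
  intro y
  rw [Q_smul_left, singular_e, mul_zero]

/-- **the radical of `tri x · ·` has dimension at most 9 if `x` is not singular** -/
theorem singular_of_finrank (hs : ∃ s : F, s ≠ 0 ∧ s ≠ 1) {x : I27 → F} (R : Submodule F (I27 → F))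
    (hR : ∀ v ∈ R, ∀ u, tri x v u = 0) (h10 : 10 ≤ finrank F R) : Singular x := by
  by_cases hx : x = 0
  · intro y
    have h1 : x = (0 : F) • e F (0, 0, 0) := by rw [hx, zero_smul]
    rw [h1]
    exact singular_of_smul _ y
  obtain ⟨l, hl⟩ : ∃ a, x a ≠ 0 := by
    by_contra h
    push Not at h
    exact hx (funext h)
  obtain ⟨h, hh, h1, h2, -⟩ := clear (E6univ F) l x hl (fun r hr q hq _ _ t => zG_mem hr t)
    (wts.filter fun b => ip l b == 1) (fun b hb => by simpa using (List.mem_filter.1 hb).2)
  have h2' : ∀ b, ip l b = 1 → act h x b = 0 := fun b hb =>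
    h2 b (List.mem_filter.2 ⟨mem_wts b, by simpa using hb⟩)
  by_cases h3 : ∃ b, nc l b = true ∧ act h x b ≠ 0
  · exfalso
    obtain ⟨b, hb, hb'⟩ := h3
    let f : (I27 → F) →ₗ[F] (I27 → F) := Matrix.mulVecLin (h : Matrix I27 I27 F)
    have hf : ∀ v, f v = act h v := fun v => rfl
    have hinj : Function.Injective f := by
      intro v w hvw
      rw [hf, hf] at hvw
      rw [← act_inv_act h v, hvw, act_inv_act]
    have h4 := finrank_le_nine (by rw [h1]; exact hl) h2' hb hb' (R.map f) (by
      rintro _ ⟨v, hv, rfl⟩ u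
      rw [hf, ← act_act_inv h u, tri_act hh]
      exact hR v hv _)
    have h5 : finrank F (R.map f) = finrank F R :=
      (Submodule.equivMapOfInjective f hinj R).finrank_eq.symm
    omega
  · push Not at h3
    have h4 : act h x = x l • e F l := by
      funext d
      rw [Pi.smul_apply, smul_eq_mul]
      rcases ip_cases l d with h5 | h5 | h5
      · rw [← h5.2, h1, e_self, mul_one]
      · rw [h2' d h5.1, e_ne (Ne.symm h5.2.1), mul_zero]
      · rw [h3 d h5.2.2, e_ne (Ne.symm h5.2.1), mul_zero]
    have h5 : x = act h⁻¹ (x l • e F l) := by rw [← h4, act_inv_act]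
    rw [h5]
    exact Singular.mulVec hs (inv_mem hh) (singular_of_smul l)

/-- **An involutory isometry with `-1`-space of dimension at most 8 is trivial.** -/
theorem eq_one_of_finrank_le (h2 : (2 : F) ≠ 0) {g : GL I27 F} (hg : g ∈ E6univ F) (hgg : g * g = 1)
    (U W : Submodule F (I27 → F)) (hU : ∀ v, v ∈ U ↔ act g v = v) (hW : ∀ v, v ∈ W ↔ act g v = -v)
    (h8 : finrank F W ≤ 8) : g = 1 := by
  have hs : ∃ s : F, s ≠ 0 ∧ s ≠ 1 := ⟨-1, neg_ne_zero.2 one_ne_zero, fun h => h2 (by linear_combination -h)⟩
  have hact : ∀ v, act g (act g v) = v := fun v => by rw [← act_mul, hgg, act_one]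
  -- the decomposition
  have hdec : ∀ v : I27 → F, ∃ u ∈ U, ∃ w ∈ W, v = u + w := by
    intro v
    refine ⟨(2 : F)⁻¹ • (v + act g v), ?_, (2 : F)⁻¹ • (v - act g v), ?_, ?_⟩
    · rw [hU, act_smul, act_add, hact, add_comm]
    · rw [hW, act_smul, sub_eq_add_neg, ← neg_one_smul F (act g v), act_add, act_smul, hact, ← smul_neg]
      congr 1
      funext a
      simp only [Pi.add_apply, Pi.smul_apply, Pi.neg_apply, smul_eq_mul]
      ring
    · rw [← smul_add, add_add_sub_cancel, ← two_smul F v, smul_smul, inv_mul_cancel₀ h2, one_smul]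
  have hsup : U ⊔ W = ⊤ := by
    rw [eq_top_iff]
    intro v _
    obtain ⟨u, hu, w, hw, rfl⟩ := hdec v
    exact Submodule.add_mem_sup hu hw
  have hinf : U ⊓ W = ⊥ := by
    rw [eq_bot_iff]
    rintro v ⟨hv, hv'⟩
    have h1 := (hU v).1 hv
    have h3 := (hW v).1 hv'
    rw [h1] at h3
    rw [Submodule.mem_bot]
    funext a
    have h4 := congrFun h3 a
    rw [Pi.neg_apply] at h4
    have h5 : (2 : F) * v a = 0 := by linear_combination h4
    exact (mul_eq_zero.1 h5).resolve_left h2
  have h27 : finrank F (I27 → F) = 27 := by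
    rw [Module.finrank_fintype_fun_eq_card]; decide
  have hdim : finrank F U + finrank F W = 27 := by
    have h1 := Submodule.finrank_sup_add_finrank_inf_eq U W
    rw [hsup, hinf, finrank_top, finrank_bot, h27] at h1
    omega
  -- the signs
  have hneg : ∀ t : F, t = -t → t = 0 := by
    intro t ht
    have h5 : (2 : F) * t = 0 := by linear_combination ht
    exact (mul_eq_zero.1 h5).resolve_left h2
  have hn1 : ∀ x y z : I27 → F, tri (-x) y z = - tri x y z := by
    intro x y z
    rw [← neg_one_smul F x, tri_smul_left, neg_one_mul]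
  have hn3 : ∀ x y z : I27 → F, tri x y (-z) = - tri x y z := by
    intro x y z
    rw [← neg_one_smul F z, Cfsg.Agent.H191.CubicBound.tri_smul_right, neg_one_mul]
  have hn2 : ∀ x y z : I27 → F, tri x (-y) z = - tri x y z := by
    intro x y z
    rw [tri_comm23, hn3, tri_comm23]
  have hWUU : ∀ x ∈ W, ∀ u ∈ U, ∀ u' ∈ U, tri x u u' = 0 := by
    intro x hx u hu u' hu'
    apply hneg
    have h1 := tri_act hg x u u'
    rw [(hW x).1 hx, (hU u).1 hu, (hU u').1 hu', hn1] at h1
    exact h1.symm
  have hWWW : ∀ x ∈ W, ∀ y ∈ W, ∀ z ∈ W, tri x y z = 0 := by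
    intro x hx y hy z hz
    apply hneg
    have h1 := tri_act hg x y z
    rw [(hW x).1 hx, (hW y).1 hy, (hW z).1 hz, hn1, hn2, hn3, neg_neg] at h1
    exact h1.symm
  -- all vectors of `W` are singular
  have hsing : ∀ x ∈ W, Singular x := by
    intro x hx
    let T : U →ₗ[F] (W →ₗ[F] F) :=
      { toFun := fun u => (triLin x u).comp W.subtype
        map_add' := fun u u' => by
          rw [Submodule.coe_add, map_add, LinearMap.add_comp]
        map_smul' := fun s u => by
          rw [Submodule.coe_smul, map_smul, LinearMap.smul_comp, RingHom.id_apply] }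
    have h1 := LinearMap.finrank_range_add_finrank_ker T
    have h3 : finrank F (LinearMap.range T) ≤ finrank F W := by
      refine (Submodule.finrank_le _).trans ?_
      rw [Module.finrank_linearMap, finrank_self, mul_one]
    let R : Submodule F (I27 → F) := (LinearMap.ker T).map U.subtype
    have h4 : finrank F R = finrank F (LinearMap.ker T) :=
      (Submodule.equivMapOfInjective _ U.injective_subtype _).finrank_eq.symm
    refine singular_of_finrank hs R ?_ (by omega)
    rintro _ ⟨⟨u, hu⟩, hu', rfl⟩ y
    rw [SetLike.mem_coe, LinearMap.mem_ker] at hu'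
    obtain ⟨u', hu'', w, hw, rfl⟩ := hdec y
    change tri x u (u' + w) = 0
    rw [Cfsg.Agent.H191.CubicBound.tri_add_right, hWUU x hx u hu u' hu'', zero_add]
    exact congrArg (fun f : (W →ₗ[F] F) => f ⟨w, hw⟩) hu'
  have htri : ∀ x ∈ W, ∀ y ∈ W, ∀ z, tri x y z = 0 := by
    intro x hx y hy z
    have h1 := Q_add_left x y z
    rw [hsing x hx z, hsing y hy z, hsing _ (W.add_mem hx hy) z, zero_add, zero_add] at h1
    exact h1.symm
  -- `W = 0`
  have hW0 : ∀ x ∈ W, x = 0 := by
    intro x hx
    by_contra hx0
    have h1 := finrank_le_of_rad hx0 U (by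
      intro u hu y
      obtain ⟨u', hu', w, hw, rfl⟩ := hdec y
      rw [Cfsg.Agent.H191.CubicBound.tri_add_right, hWUU x hx u hu u' hu', zero_add, tri_comm23]
      exact htri x hx w hw u)
    omega
  apply eq_one_of_act
  intro a
  obtain ⟨u, hu, w, hw, h1⟩ := hdec (e F a)
  rw [hW0 w hw, add_zero] at h1
  rw [h1]
  exact (hU u).1 hu

end Cfsg.Agent.H336.LinFour.CubE6
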