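import Cfsg.Agent.H336.LinFour.CubE6

/-!
# The centre of the group generated by the root elements in dimension 27 has no element of order two
-/

set_option autoImplicit false

namespace Cfsg.Agent.H336.LinFour.CubE6

open Cfsg Cfsg.Lie Module
open Cfsg.Agent.ChevalleyStructure.E6Form.Cubic Cfsg.Agent.ChevalleyStructure.E6Form.Table
open Cfsg.Agent.ChevalleyStructure.E6Form.Elim

universe u

/-! ### the centre -/

theorem sep_ok : (wts.all fun l => wts.all fun d => (l == d) || (List.range 72).any fun r =>
    ((tabr r).any fun q => q.2.1 == d) && (tabr r).all fun q => !(q.2.1 == l)) = true := by decide +kernel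

theorem sep {l d : I27} (h : l ≠ d) : ∃ r < 72, (∃ q ∈ tabr r, q.2.1 = d) ∧ ∀ q ∈ tabr r, q.2.1 ≠ l := by
  have h1 := forall_wts (forall_wts sep_ok l) d
  rw [Bool.or_eq_true, beq_iff_eq] at h1
  have h2 := h1.resolve_left h
  rw [List.any_eq_true] at h2
  obtain ⟨r, hr, h3⟩ := h2
  rw [Bool.and_eq_true, List.any_eq_true, List.all_eq_true] at h3
  obtain ⟨⟨q, hq, hq'⟩, h4⟩ := h3
  refine ⟨r, List.mem_range.1 hr, ⟨q, hq, beq_iff_eq.1 hq'⟩, fun q' hq' hl => ?_⟩
  have := h4 q' hq'
  rw [hl] at this
  simp at this

theorem conn_ok : (wts.all fun l => wts.all fun d => wts.any fun c => (ip l c == 1) && (ip c d == 1)) = true := by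
  decide +kernel

theorem conn (l d : I27) : ∃ c, ip l c = 1 ∧ ip c d = 1 := by
  have h1 := forall_wts (forall_wts conn_ok l) d
  rw [List.any_eq_true] at h1
  obtain ⟨c, -, h2⟩ := h1
  rw [Bool.and_eq_true, beq_iff_eq, beq_iff_eq] at h2
  exact ⟨c, h2⟩

theorem exists_nc (l : I27) : ∃ c, nc l c = true := by
  revert l; decide +kernel

variable {F : Type u} [Field F]

/-- an element of order two commuting with the root elements is trivial -/
theorem central {z : GL I27 F} (hz : z ∈ E6univ F) (hzz : z * z = 1) (hc : ∀ r < 72, ∀ t : F, zG r t * z = z * zG r t) :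
    z = 1 := by
  -- diagonal
  have hdiag : ∀ l d, l ≠ d → act z (e F l) d = 0 := by
    intro l d hld
    obtain ⟨r, hr, ⟨q, hq, hqd⟩, hl⟩ := sep hld
    have h1 : act (zG r 1) (act z (e F l)) = act z (e F l) := by
      rw [← act_mul, hc r hr, act_mul, act_zG_e_of_not_source hr hl]
    have h2 := act_zG_target hr hq 1 (act z (e F l))
    rw [h1, hqd, one_mul] at h2
    have h3 : (q.1 : F) * act z (e F l) d = 0 := by
      have h4 : act z (e F l) q.2.2 + (q.1 : F) * act z (e F l) d = act z (e F l) q.2.2 + 0 := by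
        rw [add_zero]; exact h2.symm
      exact add_left_cancel h4
    have hs0 : (q.1 : F) ≠ 0 := by rcases (tab_facts hr hq).1 with hs | hs <;> rw [hs] <;> simp
    exact (mul_eq_zero.1 h3).resolve_left hs0
  have hdiag' : ∀ l, act z (e F l) = act z (e F l) l • e F l := by
    intro l
    funext d
    rw [Pi.smul_apply, smul_eq_mul]
    by_cases h : l = d
    · subst h; rw [e_self, mul_one]
    · rw [hdiag l d h, e_ne (Ne.symm h), mul_zero]
  set lam : I27 → F := fun l => act z (e F l) l with hlam
  have hact : ∀ l, act z (e F l) = lam l • e F l := hdiag'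
  have hsq : ∀ l, lam l * lam l = 1 := by
    intro l
    have h1 : act z (act z (e F l)) = e F l := by rw [← act_mul, hzz, act_one]
    rw [hact, act_smul, hact, smul_smul] at h1
    have h2 := congrFun h1 l
    rwa [Pi.smul_apply, e_self, smul_eq_mul, mul_one] at h2
  have hadj : ∀ l b, ip l b = 1 → lam l = lam b := by
    intro l b hlb
    obtain ⟨r, hr, q, hq, hql, hqb⟩ := exists_root hlb
    have hs0 : (q.1 : F) ≠ 0 := by rcases (tab_facts hr hq).1 with hs | hs <;> rw [hs] <;> simp
    have h1 : act (zG r 1) (act z (e F l)) = act z (act (zG r 1) (e F l)) := by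
      rw [← act_mul, ← act_mul, hc r hr]
    have h2 := act_zG_e_of_source hr hq (1 : F)
    rw [hql, hqb, one_mul] at h2
    rw [hact, act_smul, h2, act_add, act_smul, hact, hact] at h1
    have h3 := congrFun h1 b
    have hne : l ≠ b := by
      rintro rfl
      rw [ip_self] at hlb
      exact absurd hlb (by norm_num)
    simp only [Pi.smul_apply, Pi.add_apply, smul_eq_mul, e_self, e_ne (a := l) (Ne.symm hne)] at h3
    have h4 : (q.1 : F) * (lam l - lam b) = 0 := by linear_combination h3
    exact sub_eq_zero.1 ((mul_eq_zero.1 h4).resolve_left hs0)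
  have hall : ∀ l b, lam l = lam b := by
    intro l b
    obtain ⟨c, h1, h2⟩ := conn l b
    exact (hadj l c h1).trans (hadj c b h2)
  have hone : ∀ l, lam l = 1 := by
    intro l
    obtain ⟨c, hlc⟩ := exists_nc l
    have h1 := tri_act hz (e F l) (e F c) (e F (th l c))
    rw [hact, hact, hact, tri_smul_left, tri_smul_mid, Cfsg.Agent.H191.CubicBound.tri_smul_right, hall c l,
      hall (th l c) l] at h1
    have h2 : tri (e F l) (e F c) (e F (th l c)) ≠ 0 := by
      rw [tri_e_e, if_pos hlc, e_self, mul_one]
      exact sg_ne_zero hlc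
    have h3 : (lam l * (lam l * lam l) - 1) * tri (e F l) (e F c) (e F (th l c)) = 0 := by
      linear_combination h1
    have h4 := (mul_eq_zero.1 h3).resolve_right h2
    rw [hsq, mul_one] at h4
    exact sub_eq_zero.1 h4
  apply eq_one_of_act
  intro a
  rw [hact, hone, one_smul]

end Cfsg.Agent.H336.LinFour.CubE6
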