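import Cfsg.Agent.H336.LinFour.Basic
import Cfsg.Prelude.Def_CaseTheorems
import Cfsg.Prelude.Def_TwoFusion
import Cfsg.Prelude.Def_Transfer
import Cfsg.Agent.Lib.Cores

/-!
# The hypotheses of S1918 give `Sit`
-/

set_option autoImplicit false

namespace Cfsg.Agent.H336.LinFour

open Subgroup Cfsg

/-- coordinates on an elementary abelian group of order 16 -/
theorem exists_coord {G : Type*} [Group G] (A : Subgroup G) (hA : Cfsg.IsElementaryAbelian 2 A)
    (hA16 : Nat.card A = 16) : ∃ th : V → G, (∀ u v, th (u + v) = th u * th v) ∧ Function.Injective th ∧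
      ∀ x, x ∈ A ↔ ∃ v, th v = x := by
  have hfin : Finite A := Nat.finite_of_card_ne_zero (by rw [hA16]; norm_num)
  let _ : CommGroup A := { (inferInstance : Group A) with mul_comm := fun a b => hA.1.is_comm.comm a b }
  let _ : Module (ZMod 2) (Additive A) := AddCommGroup.zmodModule (n := 2) fun x => by
    apply Additive.toMul.injective
    apply Subtype.ext
    change ((Additive.toMul x : A) : G) ^ 2 = 1
    exact hA.2 _ (Additive.toMul x : A).2
  have hfd : Module.Finite (ZMod 2) (Additive A) := inferInstance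
  have hrk : Module.finrank (ZMod 2) (Additive A) = 4 := by
    have h1 : Nat.card (Additive A) = 2 ^ Module.finrank (ZMod 2) (Additive A) := by
      have := Module.natCard_eq_pow_finrank (K := ZMod 2) (V := Additive A)
      rwa [Nat.card_zmod] at this
    have h2 : Nat.card (Additive A) = 16 := hA16
    rw [h2] at h1
    have h3 : 2 ^ 4 = 2 ^ Module.finrank (ZMod 2) (Additive A) := by rw [← h1]; norm_num
    exact (Nat.pow_right_injective le_rfl h3).symm
  obtain ⟨e⟩ : Nonempty (V ≃ₗ[ZMod 2] Additive A) := by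
    refine ⟨LinearEquiv.ofFinrankEq _ _ ?_⟩
    rw [hrk, Module.finrank_fintype_fun_eq_card, Fintype.card_fin]
  refine ⟨fun v => ((Additive.toMul (e v) : A) : G), fun u v => ?_, fun u v huv => ?_, fun x => ⟨fun hx => ?_, ?_⟩⟩
  · exact congrArg (fun w : Additive A => ((Additive.toMul w : A) : G)) (map_add e u v)
  · exact e.injective (Additive.toMul.injective (Subtype.ext huv))
  · obtain ⟨v, hv⟩ := e.surjective (Additive.ofMul ⟨x, hx⟩)
    exact ⟨v, by change ((Additive.toMul (e v) : A) : G) = x; rw [hv]; rfl⟩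
  · rintro ⟨v, rfl⟩
    exact (Additive.toMul (e v) : A).2

theorem exists_sit_aux {G : Type*} [Group G] [Finite G] (A : Subgroup G) (hA : Cfsg.IsElementaryAbelian 2 A)
    (hA16 : Nat.card A = 16) (N : Subgroup G) (hNdef : N = normalizer (A : Set G)) (D : Subgroup N) [hDn : D.Normal]
    (hDodd : Odd (Nat.card D)) (E K : Subgroup (↥N ⧸ D)) (hEn : E.Normal) (hE16 : Nat.card E = 16)
    (hEc : Subgroup.centralizer (E : Set (↥N ⧸ D)) = E) (hinf : E ⊓ K = ⊥) (hsup : E ⊔ K = ⊤)
    (eK : K ≃* GL (Fin 4) (ZMod 2)) :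
    ∃ (th : V → G) (O K0 : Subgroup G) (h : Sit th O K0), h.A = A := by
  classical
  obtain ⟨th, hadd, hinj, hmem⟩ := exists_coord A hA hA16
  have hAN : A ≤ N := by rw [hNdef]; exact le_normalizer
  have hNmem : ∀ n ∈ N, ∀ a ∈ A, n * a * n⁻¹ ∈ A := by
    intro n hn a ha
    rw [hNdef, mem_normalizer_iff] at hn
    exact (hn a).1 ha
  let π : N →* (↥N ⧸ D) := QuotientGroup.mk' D
  have hπs : Function.Surjective π := QuotientGroup.mk'_surjective _
  have hπk : ∀ n : N, π n = 1 ↔ n ∈ D := fun n => by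
    rw [← MonoidHom.mem_ker]
    change n ∈ (QuotientGroup.mk' D).ker ↔ _
    rw [QuotientGroup.ker_mk']
  have hsq : ∀ v, th v * th v = 1 := fun v => by
    rw [← hadd, v_add_self]
    have := hadd 0 0
    rw [add_zero] at this
    exact left_eq_mul.mp this
  have hthA : ∀ v, th v ∈ A := fun v => (hmem _).2 ⟨v, rfl⟩
  -- `A ∩ D = 1`
  have hAD : ∀ n : N, (n : G) ∈ A → n ∈ D → n = 1 := by
    intro n hnA hnD
    obtain ⟨v, hv⟩ := (hmem _).1 hnA
    have h1 : orderOf (⟨n, hnD⟩ : D) ∣ 2 := orderOf_dvd_of_pow_eq_one (Subtype.ext (Subtype.ext (by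
      change (n : G) ^ 2 = 1
      rw [← hv, pow_two, hsq])))
    have h2 : orderOf (⟨n, hnD⟩ : D) ∣ Nat.card D := orderOf_dvd_natCard _
    have h3 : orderOf (⟨n, hnD⟩ : D) = 1 :=
      Nat.eq_one_of_dvd_coprimes (Nat.coprime_two_left.2 hDodd) h1 h2
    exact congrArg Subtype.val (orderOf_eq_one_iff.1 h3)
  -- `D` centralises `A`
  have hDA : ∀ d ∈ D, ∀ v, (d : G) * th v = th v * d := by
    intro d hd v
    let a : N := ⟨th v, hAN (hthA v)⟩
    have h1 : d * a * d⁻¹ * a⁻¹ = 1 := by
      apply hAD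
      · have h2 : (d : G) * th v * (d : G)⁻¹ ∈ A := hNmem d d.2 _ (hthA v)
        exact A.mul_mem h2 (A.inv_mem (hthA v))
      · have h2 : a * d⁻¹ * a⁻¹ ∈ D := hDn.conj_mem _ (D.inv_mem hd) a
        have h3 : d * a * d⁻¹ * a⁻¹ = d * (a * d⁻¹ * a⁻¹) := by group
        rw [h3]
        exact D.mul_mem hd h2
    rw [mul_inv_eq_one, mul_inv_eq_iff_eq_mul] at h1
    exact congrArg Subtype.val h1
  -- `Q / E ≅ K`
  have hbij : Function.Bijective ((QuotientGroup.mk' E).comp K.subtype) := by
    constructor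
    · rw [injective_iff_map_eq_one]
      intro k hk
      have h1 : (k : ↥N ⧸ D) ∈ E := by
        have h2 : (QuotientGroup.mk' E) (k : ↥N ⧸ D) = 1 := hk
        rwa [← MonoidHom.mem_ker, QuotientGroup.ker_mk'] at h2
      have h3 : (k : ↥N ⧸ D) ∈ E ⊓ K := ⟨h1, k.2⟩
      rw [hinf, mem_bot] at h3
      exact Subtype.ext h3
    · intro y
      obtain ⟨x, rfl⟩ := QuotientGroup.mk'_surjective E y
      have hx : x ∈ E ⊔ K := by rw [hsup]; trivial
      obtain ⟨e, he, k, hk, rfl⟩ := mem_sup_of_normal_left.1 hx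
      refine ⟨⟨k, hk⟩, ?_⟩
      change (QuotientGroup.mk' E) k = _
      rw [map_mul]
      have h2 : (QuotientGroup.mk' E) e = 1 := by
        rw [← MonoidHom.mem_ker, QuotientGroup.ker_mk']; exact he
      rw [h2, one_mul]
  let eQ : K ≃* ((↥N ⧸ D) ⧸ E) := MulEquiv.ofBijective _ hbij
  have hsimp : IsSimpleGroup ((↥N ⧸ D) ⧸ E) := by
    have := isSimple_S
    exact (eQ.symm.trans eK).isSimpleGroup
  have hcardK : Nat.card K = 20160 := by rw [Nat.card_congr eK.toEquiv]; exact card_S
  have hcardQ : Nat.card ((↥N ⧸ D) ⧸ E) = 20160 := by rw [← Nat.card_congr eQ.toEquiv, hcardK]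
  -- the image of `A`
  let Ab : Subgroup (↥N ⧸ D) := (A.subgroupOf N).map π
  have hAbn : Ab.Normal := by
    have h1 : (A.subgroupOf N).Normal := by
      refine ⟨fun a ha n => ?_⟩
      rw [mem_subgroupOf] at ha ⊢
      exact hNmem n n.2 _ ha
    exact h1.map π hπs
  have hAbcard : Nat.card Ab = 16 := by
    have h1 : Function.Injective (π.comp (A.subgroupOf N).subtype) := by
      rw [injective_iff_map_eq_one]
      intro a ha
      have h2 : π (a : N) = 1 := ha
      exact Subtype.ext (hAD a (mem_subgroupOf.1 a.2) ((hπk _).1 h2))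
    have h2 : Nat.card Ab = Nat.card (A.subgroupOf N) := by
      have h3 : Ab = (π.comp (A.subgroupOf N).subtype).range := by
        rw [MonoidHom.range_eq_map, ← Subgroup.map_map, ← MonoidHom.range_eq_map, Subgroup.range_subtype]
      rw [h3]
      exact (Nat.card_congr (Equiv.ofInjective _ h1)).symm
    rw [h2, Nat.card_congr (subgroupOfEquivOfLe hAN).toEquiv, hA16]
  have hAbE : Ab = E := by
    have h1 : Ab ≤ E := by
      have hn2 : (Ab.map (QuotientGroup.mk' E)).Normal := hAbn.map _ (QuotientGroup.mk'_surjective E)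
      rcases hn2.eq_bot_or_eq_top with h2 | h2
      · rw [Subgroup.map_eq_bot_iff, QuotientGroup.ker_mk'] at h2
        exact h2
      · exfalso
        have h3 : Nat.card (Ab.map (QuotientGroup.mk' E)) ∣ Nat.card Ab := by
          exact Subgroup.card_map_dvd Ab (QuotientGroup.mk' E)
        rw [h2, card_top, hcardQ, hAbcard] at h3
        exact absurd h3 (by norm_num)
    exact Subgroup.eq_of_le_of_card_ge h1 (by rw [hAbcard, hE16])
  have hAbc : centralizer (Ab : Set (↥N ⧸ D)) = Ab := by rw [hAbE, hEc]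
  -- centralising `A` and centralising the image
  have hcc : ∀ n : N, (∀ a ∈ Ab, π n * a = a * π n) → ∀ v, (n : G) * th v = th v * n := by
    intro n hn v
    let a : N := ⟨th v, hAN (hthA v)⟩
    have h0 := hn (π a) ⟨a, mem_subgroupOf.2 (hthA v), rfl⟩
    have h1 : n * a * n⁻¹ * a⁻¹ = 1 := by
      apply hAD
      · have h2 : (n : G) * th v * (n : G)⁻¹ ∈ A := hNmem n n.2 _ (hthA v)
        exact A.mul_mem h2 (A.inv_mem (hthA v))
      · rw [← hπk, map_mul, map_mul, map_mul, h0, map_inv, map_inv]; group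
    rw [mul_inv_eq_one, mul_inv_eq_iff_eq_mul] at h1
    exact congrArg Subtype.val h1
  have hcent : ∀ x : G, (∀ v, x * th v = th v * x) → x ∈ N := by
    intro x hx
    have h1 : x ∈ centralizer (A : Set G) := by
      rw [mem_centralizer_iff]
      intro a ha
      obtain ⟨v, rfl⟩ := (hmem _).1 ha
      exact (hx v).symm
    rw [hNdef]
    exact centralizer_le_normalizer (A : Set G) h1
  have hnorm : ∀ n : G, (∀ v, ∃ u, n * th v * n⁻¹ = th u) → n ∈ N := by
    intro n h
    rw [hNdef, mem_normalizer_iff]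
    have h1 : ∀ a ∈ A, n * a * n⁻¹ ∈ A := by
      intro a ha
      obtain ⟨v, rfl⟩ := (hmem _).1 ha
      obtain ⟨u, hu⟩ := h v
      rw [hu]
      exact hthA u
    intro a
    refine ⟨h1 a, fun ha => ?_⟩
    let f : A → A := fun x => ⟨n * x * n⁻¹, h1 x x.2⟩
    have hf : Function.Injective f := fun x y hxy => by
      have := congrArg Subtype.val hxy
      exact Subtype.ext (mul_left_cancel (mul_right_cancel this))
    obtain ⟨y, hy⟩ := Finite.injective_iff_surjective.1 hf ⟨_, ha⟩
    have h2 : n * (y : G) * n⁻¹ = n * a * n⁻¹ := congrArg Subtype.val hy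
    rw [← mul_left_cancel (mul_right_cancel h2)]
    exact y.2
  -- the action of `N` on `V`
  have hactN : ∀ n : N, ∃ s : S, ∀ v, (n : G) * th v * (n : G)⁻¹ = th (act s v) := by
    intro n
    have h1 : ∀ v, ∃ u, (n : G) * th v * (n : G)⁻¹ = th u := fun v => by
      obtain ⟨u, hu⟩ := (hmem _).1 (hNmem n n.2 _ (hthA v))
      exact ⟨u, hu.symm⟩
    choose f hf using h1
    have hfi : Function.Injective f := fun a b hab => by
      apply hinj
      have := (hf a).trans ((congrArg th hab).trans (hf b).symm)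
      exact mul_left_cancel (mul_right_cancel this)
    have hfb : Function.Bijective f := ⟨hfi, Finite.injective_iff_surjective.1 hfi⟩
    let g : V ≃+ V := { Equiv.ofBijective f hfb with
      map_add' := fun u v => by
        change f (u + v) = f u + f v
        apply hinj
        rw [hadd, ← hf, ← hf, ← hf, hadd]; group }
    obtain ⟨s, hs⟩ := exists_act g
    exact ⟨s, fun v => by rw [hs]; exact hf v⟩
  choose ρ0 hρ0 using hactN
  have hρuniq : ∀ (n : N) (s : S), (∀ v, (n : G) * th v * (n : G)⁻¹ = th (act s v)) → ρ0 n = s := by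
    intro n s hs
    apply act_ext
    intro v
    apply hinj
    rw [← hρ0, hs]
  let ρN : N →* S := MonoidHom.mk' ρ0 (fun m n => by
    apply hρuniq
    intro v
    rw [act_mul, ← hρ0, ← hρ0]
    push_cast
    group)
  have hρN : ∀ (n : N) v, (n : G) * th v * (n : G)⁻¹ = th (act (ρN n) v) := hρ0
  have hρ1 : ∀ n : N, ρN n = 1 ↔ ∀ v, (n : G) * th v = th v * n := by
    intro n
    constructor
    · intro h1 v
      have := hρN n v
      rw [h1, act_one, mul_inv_eq_iff_eq_mul] at this
      exact this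
    · intro h1
      apply hρuniq
      intro v
      rw [act_one, h1, mul_inv_cancel_right]
  let ρQ : (↥N ⧸ D) →* S := QuotientGroup.lift D ρN fun d hd => (hρ1 d).2 (hDA d hd)
  have hρQ : ∀ n : N, ρQ (π n) = ρN n := fun n => rfl
  have hρK : Function.Bijective (ρQ.comp K.subtype) := by
    have hi : Function.Injective (ρQ.comp K.subtype) := by
      rw [injective_iff_map_eq_one]
      intro k hk
      obtain ⟨n, hn⟩ := hπs (k : ↥N ⧸ D)
      have h1 : ρN n = 1 := by
        rw [← hρQ, hn]; exact hk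
      have h2 := (hρ1 n).1 h1
      have h3 : (k : ↥N ⧸ D) ∈ centralizer (Ab : Set (↥N ⧸ D)) := by
        rw [mem_centralizer_iff]
        rintro _ ⟨a, ha, rfl⟩
        obtain ⟨v, hv⟩ := (hmem _).1 (mem_subgroupOf.1 ha)
        rw [← hn, ← map_mul, ← map_mul]
        congr 1
        apply Subtype.ext
        change (a : G) * n = n * a
        rw [← hv, h2]
      rw [hAbc, hAbE] at h3
      have h4 : (k : ↥N ⧸ D) ∈ E ⊓ K := ⟨h3, k.2⟩
      rw [hinf, mem_bot] at h4
      exact Subtype.ext h4
    have hfinS : Finite S := inferInstance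
    exact (Nat.bijective_iff_injective_and_card _).2 ⟨hi, by rw [hcardK, card_S]⟩
  let K0 : Subgroup G := (K.comap π).map N.subtype
  let O : Subgroup G := D.map N.subtype
  have hSit : Sit th O K0 :=
    { add := hadd
      inj := hinj
      odd := by
        have h1 : Nat.card O = Nat.card D :=
          (Nat.card_congr (D.equivMapOfInjective _ N.subtype_injective).toEquiv).symm
        rw [h1]; exact hDodd
      oc := by
        rintro _ ⟨d, hd, rfl⟩ v
        exact hDA d hd v
      oN := by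
        rintro _ ⟨d, hd, rfl⟩ n hn
        exact ⟨⟨n, hnorm n hn⟩ * d * ⟨n, hnorm n hn⟩⁻¹, hDn.conj_mem _ hd _, rfl⟩
      cent := by
        intro x hx
        let n : N := ⟨x, hcent x hx⟩
        have h1 : π n ∈ Ab := by
          rw [← hAbc, mem_centralizer_iff]
          rintro _ ⟨a, ha, rfl⟩
          obtain ⟨v, hv⟩ := (hmem _).1 (mem_subgroupOf.1 ha)
          rw [← map_mul, ← map_mul]
          congr 1
          apply Subtype.ext
          change (a : G) * x = x * a
          rw [← hv, hx]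
        obtain ⟨a, ha, ha'⟩ := h1
        obtain ⟨v, hv⟩ := (hmem _).1 (mem_subgroupOf.1 ha)
        have h2 : n * a⁻¹ ∈ D := by
          rw [← hπk, map_mul, map_inv, ← ha', mul_inv_cancel]
        refine ⟨x * (th v)⁻¹, ⟨n * a⁻¹, h2, ?_⟩, v, by group⟩
        change x * (a : G)⁻¹ = _
        rw [hv]
      k0 := by
        rintro _ ⟨n, -, rfl⟩ v
        exact ⟨_, hρN n v⟩
      le := by
        rintro _ ⟨d, hd, rfl⟩
        refine ⟨d, ?_, rfl⟩
        change π d ∈ K
        rw [(hπk d).2 hd]
        exact K.one_mem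
      k0c := by
        rintro _ ⟨n, hn, rfl⟩ hc
        refine ⟨n, ?_, rfl⟩
        change n ∈ D
        rw [← hπk]
        have h1 : (ρQ.comp K.subtype) ⟨π n, hn⟩ = (ρQ.comp K.subtype) 1 := by
          rw [map_one]
          change ρQ (π n) = 1
          rw [hρQ, hρ1]
          exact hc
        exact congrArg Subtype.val (hρK.1 h1)
      full := by
        intro g
        obtain ⟨s, hs⟩ := exists_act g
        obtain ⟨k, hk⟩ := hρK.2 s
        obtain ⟨n, hn⟩ := hπs (k : ↥N ⧸ D)
        refine ⟨n, ⟨n, ?_, rfl⟩, fun v => ?_⟩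
        · change π n ∈ K
          rw [hn]; exact k.2
        · rw [hρN, ← hs, ← hρQ, hn]
          have hk' : ρQ (k : ↥N ⧸ D) = s := hk
          rw [hk'] }
  refine ⟨th, O, K0, hSit, ?_⟩
  ext x
  exact (hmem x).symm

theorem exists_sit {G : Type*} [Group G] [Finite G] (A : Subgroup G) (hA : Cfsg.IsElementaryAbelian 2 A)
    (hA16 : Nat.card A = 16)
    (hN : ∃ (E K : Subgroup (↥(Subgroup.normalizer (A : Set G)) ⧸ Cfsg.oddCore ↥(Subgroup.normalizer (A : Set G)))),
      E.Normal ∧ Cfsg.IsElementaryAbelian 2 E ∧ Nat.card E = 16 ∧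
      Subgroup.centralizer (E : Set (↥(Subgroup.normalizer (A : Set G)) ⧸ Cfsg.oddCore ↥(Subgroup.normalizer (A : Set G)))) = E ∧
      E ⊓ K = ⊥ ∧ E ⊔ K = ⊤ ∧ Nonempty (K ≃* GL (Fin 4) (ZMod 2))) :
    ∃ (th : V → G) (O K0 : Subgroup G) (h : Sit th O K0), h.A = A := by
  obtain ⟨E, K, hEn, -, hE16, hEc, hinf, hsup, ⟨eK⟩⟩ := hN
  exact exists_sit_aux A hA hA16 _ rfl (Cfsg.oddCore ↥(Subgroup.normalizer (A : Set G)))
    (Nat.coprime_two_right.1 (Lib.Cores.pPrimeCore_coprime (G := ↥(Subgroup.normalizer (A : Set G))) 2)) E K hEn hE16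
    hEc hinf hsup eK

end Cfsg.Agent.H336.LinFour
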